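import Cfsg.Agent.Lib.Blocks.Third
import Cfsg.Agent.Lib.BlockT.Inflate2
import Mathlib

/-!
# The coefficient of `1` in the principal `2`-block idempotent is a local unit

The coefficient `a₁` of `1` in the idempotent of the principal `2`-block of a finite group is not in
the local ideal.  Write `σ` for the sum of the `2`-regular elements, `r` for their number and `e₀` for
the idempotent.  All central characters of `s = σ - r e₀` are in the local ideal, so a power
`s ^ (2 ^ j)` has coefficients in the local ideal.  Apply Brauer's homomorphism to `C = C_G(P)`.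
The image of `s` is supported on the subgroup `K` of the odd order elements of `C`, and on `K` squaring
satisfies `(x²)₁ ≡ x₁²` modulo two as `K` has no involutions.  So `s₁ = 1 - r a₁` lies in the local
ideal.
-/

set_option autoImplicit false
set_option linter.unusedSectionVars false

namespace Cfsg.Agent.Lib.CharDeg.PrinCoeff

open Cfsg MonoidAlgebra
open Cfsg.Agent.Lib.Blocks.Local Cfsg.Agent.Lib.Blocks.Central
open Cfsg.Agent.Lib.Blocks.Brauer Cfsg.Agent.Lib.Blocks.Third

universe u

variable {G : Type u} [Group G] [Fintype G] {M : Ideal AlgInt}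

/-- In characteristic two, the sum `∑ f h` of an inversion-invariant function is congruent to its
sum over the `h` with `h * h = 1`. -/
theorem sum_sub_sum_involutions (hM : IsPModular 2 M) (f : G → ℂ) (hf : ∀ h, f h⁻¹ = f h)
    (hloc : ∀ h, MemLocalRing M (f h)) [DecidablePred fun h : G => h * h = 1] :
    MemLocalIdeal M (∑ h, f h - ∑ h ∈ Finset.univ.filter (fun h : G => h * h = 1), f h) := by
  classical
  let τ : Equiv.Perm G := Equiv.inv G
  have hτ : τ * τ = 1 := by
    ext g
    simp [τ]
  let Q : Subgroup (Equiv.Perm G) := Subgroup.zpowers τ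
  have hQ1 : ∀ q : Q, (q : Equiv.Perm G) = 1 ∨ (q : Equiv.Perm G) = τ := by
    rintro ⟨q, hq⟩
    obtain ⟨n, rfl⟩ := Subgroup.mem_zpowers_iff.mp hq
    have h2 : τ ^ (2 : ℤ) = 1 := by
      rw [zpow_two, hτ]
    rcases Int.even_or_odd' n with ⟨m, rfl | rfl⟩
    · left
      show τ ^ (2 * m) = 1
      rw [zpow_mul, h2, one_zpow]
    · right
      show τ ^ (2 * m + 1) = τ
      rw [zpow_add, zpow_mul, h2, one_zpow, one_mul, zpow_one]
  have hQp : IsPGroup 2 Q := by
    intro q
    refine ⟨1, ?_⟩
    apply Subtype.ext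
    rw [pow_one]
    show (q : Equiv.Perm G) ^ 2 = 1
    rcases hQ1 q with h | h
    · rw [h, one_pow]
    · rw [h, pow_two, hτ]
  refine sum_sub_sum_fixed_mem hM hQp f ?_ hloc _ ?_
  · intro q x
    show f ((q : Equiv.Perm G) x) = f x
    rcases hQ1 q with h | h
    · rw [h]; rfl
    · rw [h]; exact hf x
  · intro x
    simp only [Finset.mem_filter, Finset.mem_univ, true_and]
    constructor
    · intro h q
      show (q : Equiv.Perm G) x = x
      rcases hQ1 q with h' | h'
      · rw [h']; rfl
      · rw [h']
        show x⁻¹ = x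
        exact inv_eq_of_mul_eq_one_left h
    · intro h
      have h1 : (⟨τ, Subgroup.mem_zpowers τ⟩ : Q) • x = x := h _
      have h2 : x⁻¹ = x := h1
      calc x * x = x * x⁻¹ := by rw [h2]
        _ = 1 := mul_inv_cancel x

/-- The squaring congruence for the coefficient of `1`. -/
theorem coeff_mul_self_one_sub [M.IsPrime] (hM : IsPModular 2 M) {x : GA G} (hx : Rc M x)
    (hinv : ∀ g : G, g ≠ 1 → g * g = 1 → MemLocalIdeal M (x.coeff g)) :
    MemLocalIdeal M ((x * x).coeff 1 - (x.coeff 1) ^ 2) := by
  classical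
  rw [coeff_mul_sum]
  simp only [mul_one]
  have h1 := sum_sub_sum_involutions hM (fun h : G => x.coeff h * x.coeff h⁻¹)
    (fun h => by simp only [inv_inv]; ring) (fun h => memLocalRing_mul (hx _) (hx _))
  have h2 : MemLocalIdeal M (∑ h ∈ Finset.univ.filter (fun h : G => h * h = 1),
      x.coeff h * x.coeff h⁻¹ - x.coeff 1 ^ 2) := by
    have hone : (1 : G) ∈ Finset.univ.filter (fun h : G => h * h = 1) := by simp
    rw [← Finset.add_sum_erase _ _ hone]
    have e : x.coeff 1 * x.coeff (1 : G)⁻¹ = x.coeff 1 ^ 2 := by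
      rw [inv_one, pow_two]
    rw [e, add_sub_cancel_left]
    refine memLocalIdeal_sum _ _ fun h hh => ?_
    simp only [Finset.mem_erase, Finset.mem_filter, Finset.mem_univ, true_and] at hh
    exact memLocalIdeal_mul_right (hinv h hh.1 hh.2) (hx _)
  have h3 := memLocalIdeal_add h1 h2
  convert h3 using 1
  ring

/-- The odd order elements of the centralizer of a Sylow subgroup form a subgroup. -/
theorem exists_odd_subgroup {p : ℕ} [hp : Fact p.Prime] (P : Sylow p G) :
    ∃ K : Subgroup G, K ≤ Subgroup.centralizer ((P : Subgroup G) : Set G) ∧ ¬ p ∣ Nat.card K ∧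
      ∀ g ∈ Subgroup.centralizer ((P : Subgroup G) : Set G), ¬ p ∣ orderOf g → g ∈ K := by
  classical
  set Q : Subgroup G := (P : Subgroup G) with hQ
  set C : Subgroup G := Subgroup.centralizer (Q : Set G) with hC
  obtain ⟨S⟩ : Nonempty (Sylow p C) := inferInstance
  have hS : ∀ s ∈ S, ∀ k : C, s * k = k * s := by
    intro s hs k
    have h1 : ∃ j : ℕ, orderOf (s : G) = p ^ j := by
      rw [Subgroup.orderOf_coe]
      exact orderOf_of_mem_isPGroup S.isPGroup' hs
    have h2 : (s : G) ∈ P := by
      apply mem_sylow_of_mem_normalizer P h1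
      rw [Subgroup.mem_normalizer_iff]
      intro n
      have hsc : ∀ q ∈ (Q : Set G), q * (s : G) = (s : G) * q :=
        Subgroup.mem_centralizer_iff.mp s.2
      constructor
      · intro hn
        have := hsc n hn
        have e : (s : G) * n * (s : G)⁻¹ = n := by rw [← this, mul_assoc, mul_inv_cancel, mul_one]
        rw [e]
        exact hn
      · intro hn
        have hn2 : n ∈ Q := by
          have h3 := hsc _ hn
          have e : n = (s : G) * n * (s : G)⁻¹ := by
            have h4 : (s : G) * n * (s : G)⁻¹ * (s : G) = (s : G) * ((s : G) * n * (s : G)⁻¹) := h3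
            have h5 : (s : G) * n * (s : G)⁻¹ * (s : G) = (s : G) * n := by group
            rw [h5] at h4
            exact mul_left_cancel h4
          rw [e]
          exact hn
        exact hn2
    have hkc : ∀ q ∈ (Q : Set G), q * (k : G) = (k : G) * q :=
      Subgroup.mem_centralizer_iff.mp k.2
    exact Subtype.ext (hkc _ h2)
  have hnc : Subgroup.normalizer ((S : Subgroup C) : Set C) ≤ Subgroup.centralizer ((S : Subgroup C) : Set C) := by
    intro x _
    rw [Subgroup.mem_centralizer_iff]
    intro y hy
    exact hS y hy x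
  let T : C →* S := MonoidHom.transferSylow S hnc
  have hcomp : Subgroup.IsComplement' T.ker (S : Subgroup C) :=
    MonoidHom.ker_transferSylow_isComplement' S hnc
  refine ⟨T.ker.map C.subtype, ?_, ?_, ?_⟩
  · rintro _ ⟨x, -, rfl⟩
    exact x.2
  · rw [Nat.card_congr (Subgroup.equivMapOfInjective T.ker C.subtype C.subtype_injective).toEquiv.symm]
    rw [← hcomp.index_eq_card]
    exact S.not_dvd_index
  · intro g hg hodd
    refine ⟨⟨g, hg⟩, ?_, rfl⟩
    show (⟨g, hg⟩ : C) ∈ T.ker
    rw [MonoidHom.mem_ker]
    obtain ⟨j, hj⟩ := (IsPGroup.iff_orderOf.mp S.isPGroup') (T ⟨g, hg⟩)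
    have h1 : orderOf (T ⟨g, hg⟩) ∣ orderOf g := by
      have := orderOf_map_dvd T (⟨g, hg⟩ : C)
      have h3 : orderOf (⟨g, hg⟩ : C) = orderOf g := Subgroup.orderOf_mk g hg
      rwa [h3] at this
    rcases Nat.eq_zero_or_pos j with rfl | hjpos
    · rw [pow_zero] at hj
      exact orderOf_eq_one_iff.mp hj
    · exfalso
      apply hodd
      rw [hj] at h1
      exact (dvd_pow_self p hjpos.ne').trans h1

/-- **The coefficient of `1` in the principal `2`-block idempotent is a local unit.** -/
theorem blockCoeff_one_principal_notMem (hM : IsPModular 2 M) :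
    ¬ MemLocalIdeal M (blockCoeff (principalBlock M G) 1) := by
  classical
  haveI hMp := isPrime_of_pModular hM
  haveI : Fact (Nat.Prime 2) := ⟨Nat.prime_two⟩
  haveI := Cfsg.Agent.Lib.Char.Ortho.finite_irrCharacter (G := G)
  letI := Fintype.ofFinite (IrrCharacter G)
  set B := principalBlock M G with hBdef
  have hB : IsPBlock M B := isPBlock_principal M
  set σ : Subalgebra.center ℂ (GA G) := regSum 2 G with hσ
  have hσloc : σ ∈ localCenter M G := regSum_mem_localCenter
  set r := regCount 2 G with hr
  have hrloc : MemLocalRing M r := memLocalRing_sum _ _ fun g _ => hσloc g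
  set e₀ : Subalgebra.center ℂ (GA G) := idem B with he₀
  have he₀loc : e₀ ∈ localCenter M G := idem_mem_localCenter hB
  set s : Subalgebra.center ℂ (GA G) := σ - r • e₀ with hs
  have hsloc : s ∈ localCenter M G :=
    Subring.sub_mem _ hσloc (smul_mem_localCenter hrloc he₀loc)
  have hω : ∀ χ : IrrCharacter G, MemLocalIdeal M (omegaHom χ s) := by
    intro χ
    rw [hs, map_sub, map_smul, he₀, omegaHom_idem, smul_eq_mul]
    by_cases hχ : χ ∈ B
    · rw [if_pos hχ, mul_one]
      have h1 : SameBlock M (χ : G → ℂ) ((oneI G : IrrCharacter G) : G → ℂ) := by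
        have := hχ
        rw [hBdef, principalBlock_eq_blockOf] at this
        exact sameBlock_symm this
      have h2 := omegaHom_sub_mem_of_sameBlock h1 hσloc
      rw [hσ, omegaHom_one_regSum] at h2
      exact h2
    · rw [if_neg hχ, mul_zero, sub_zero, hσ]
      rw [omegaHom_regSum_of_notMem hM hχ]
      exact memLocalIdeal_zero
  obtain ⟨n, hn⟩ := exists_pow_Jc hsloc hω
  -- the Sylow subgroup and its centralizer
  obtain ⟨P⟩ : Nonempty (Sylow 2 G) := inferInstance
  obtain ⟨K, hKC, hKcard, hKreg⟩ := exists_odd_subgroup P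
  set C : Subgroup G := Subgroup.centralizer ((P : Subgroup G) : Set G) with hC
  have hsR : Rc M (s : GA G) := Rc.of_localCenter hsloc
  have hsI : QInv (P : Subgroup G) (s : GA G) := QInv.of_central (isCentral_of_mem s)
  -- the coefficients of `s`
  have hscoeff : ∀ g : G, (s : GA G).coeff g =
      (σ : GA G).coeff g - r * (e₀ : GA G).coeff g := by
    intro g
    have : ((s : Subalgebra.center ℂ (GA G)) : GA G) = (σ : GA G) - r • (e₀ : GA G) := rfl
    rw [this, coeff_sub', coeff_smul']
  have hs1 : (s : GA G).coeff 1 = 1 - r * blockCoeff B 1 := by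
    rw [hscoeff, hσ, coeff_regSum, he₀, coeff_idem]
    simp
  have hs0 : ∀ g : G, 2 ∣ orderOf g → (s : GA G).coeff g = 0 := by
    intro g hg
    rw [hscoeff, hσ, coeff_regSum, he₀, coeff_idem,
      Cfsg.Agent.Lib.BlockT.Inflate2.blockCoeff_eq_zero hM hB hg]
    simp [hg]
  -- involutions are not in `K`
  have hinvK : ∀ g : G, g ≠ 1 → g * g = 1 → g ∉ K := by
    intro g hg hgg hgK
    apply hKcard
    have h1 : orderOf (⟨g, hgK⟩ : K) ∣ Nat.card K := orderOf_dvd_natCard _
    rw [Subgroup.orderOf_mk] at h1
    have h2 : orderOf g = 2 := orderOf_eq_prime (by rw [pow_two]; exact hgg) hg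
    rwa [h2] at h1
  let Supp : GA G → Prop := fun x => ∀ g, g ∉ K → MemLocalIdeal M (x.coeff g)
  have hSuppMul : ∀ x y : GA G, Supp x → Supp y → Rc M x → Rc M y → Supp (x * y) := by
    intro x y hx hy hxR hyR g hg
    rw [coeff_mul_sum]
    refine memLocalIdeal_sum _ _ fun h _ => ?_
    by_cases hh : h ∈ K
    · have : h⁻¹ * g ∉ K := by
        intro h'
        apply hg
        have := K.mul_mem hh h'
        simpa using this
      exact memLocalIdeal_mul_left (hxR _) (hy _ this)
    · exact memLocalIdeal_mul_right (hx _ hh) (hyR _)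
  have key : ∀ j : ℕ, Rc M (res (C : Set G) ((s : GA G) ^ (2 ^ j))) ∧
      Supp (res (C : Set G) ((s : GA G) ^ (2 ^ j))) ∧
      MemLocalIdeal M ((res (C : Set G) ((s : GA G) ^ (2 ^ j))).coeff 1 -
        ((s : GA G).coeff 1) ^ (2 ^ j)) := by
    intro j
    induction j with
    | zero =>
      rw [pow_zero, pow_one, pow_one]
      refine ⟨Rc.res _ hsR, ?_, ?_⟩
      · intro g hg
        by_cases hgC : g ∈ C
        · have h2 : 2 ∣ orderOf g := by
            by_contra h
            exact hg (hKreg g hgC h)
          rw [coeff_res_of_mem _ hgC, hs0 g h2]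
          exact memLocalIdeal_zero
        · rw [coeff_res_of_notMem _ hgC]
          exact memLocalIdeal_zero
      · rw [coeff_res_of_mem _ (C.one_mem), sub_self]
        exact memLocalIdeal_zero
    | succ j ih =>
      obtain ⟨ih1, ih2, ih3⟩ := ih
      set x : GA G := (s : GA G) ^ (2 ^ j) with hx
      set u : GA G := res (C : Set G) x with hu
      have hxR : Rc M x := hsR.pow _
      have hxI : QInv (P : Subgroup G) x := hsI.pow _
      have hpow : (s : GA G) ^ (2 ^ (j + 1)) = x * x := by
        rw [hx, ← pow_add]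
        congr 1
        rw [pow_succ]
        ring
      rw [hpow]
      have hJ := res_mul_sub_mem hM P.isPGroup' hxI hxI hxR hxR
      have hJ' : Jc M (res (C : Set G) (x * x) - u * u) := hJ
      have hcoeff : ∀ g, MemLocalIdeal M ((res (C : Set G) (x * x)).coeff g - (u * u).coeff g) := by
        intro g
        have := hJ' g
        rwa [coeff_sub'] at this
      have huu := hSuppMul u u ih2 ih2 ih1 ih1
      refine ⟨Rc.res _ (hxR.mul hxR), ?_, ?_⟩
      · intro g hg
        have := memLocalIdeal_add (hcoeff g) (huu g hg)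
        simpa using this
      · have h1 := hcoeff 1
        have h2 := coeff_mul_self_one_sub hM ih1 (fun g hg hgg => ih2 g (hinvK g hg hgg))
        have h3 : MemLocalIdeal M ((u.coeff 1) ^ 2 - (((s : GA G).coeff 1) ^ (2 ^ j)) ^ 2) := by
          have e : (u.coeff 1) ^ 2 - (((s : GA G).coeff 1) ^ (2 ^ j)) ^ 2 =
              (u.coeff 1 - ((s : GA G).coeff 1) ^ (2 ^ j)) *
                (u.coeff 1 + ((s : GA G).coeff 1) ^ (2 ^ j)) := by ring
          rw [e]
          exact memLocalIdeal_mul_right ih3
            (memLocalRing_add (ih1 1) (memLocalRing_pow (hsR 1) _))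
        have h4 := memLocalIdeal_add (memLocalIdeal_add h1 h2) h3
        have e : (s : GA G).coeff 1 ^ 2 ^ (j + 1) = (((s : GA G).coeff 1) ^ (2 ^ j)) ^ 2 := by
          rw [← pow_mul, pow_succ]
        rw [e]
        convert h4 using 1
        ring
  -- conclusion
  have hle : n ≤ 2 ^ n := Nat.lt_two_pow_self.le
  have hJn : Jc M ((s : GA G) ^ (2 ^ n)) := by
    have e : (s : GA G) ^ (2 ^ n) = (s : GA G) ^ (2 ^ n - n) * (s : GA G) ^ n := by
      rw [← pow_add, Nat.sub_add_cancel hle]
    rw [e]
    exact (hsR.pow _).mul_Jc hn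
  obtain ⟨-, -, hk3⟩ := key n
  rw [coeff_res_of_mem _ (C.one_mem)] at hk3
  have h5 : MemLocalIdeal M (((s : GA G).coeff 1) ^ (2 ^ n)) := by
    have := memLocalIdeal_sub (hJn 1) hk3
    simpa using this
  have h6 : MemLocalIdeal M ((s : GA G).coeff 1) := by
    by_contra hne
    have aux : ∀ m : ℕ, ¬ MemLocalIdeal M (((s : GA G).coeff 1) ^ m) := by
      intro m
      induction m with
      | zero =>
        rw [pow_zero]
        exact one_notMemLocalIdeal
      | succ m ihm =>
        rw [pow_succ]
        exact notMem_mul (memLocalRing_pow (hsR 1) m) ihm (hsR 1) hne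
    exact aux _ h5
  intro ha
  rw [hs1] at h6
  apply one_notMemLocalIdeal (M := M)
  have := memLocalIdeal_add h6 (memLocalIdeal_mul_left hrloc ha)
  simpa using this

end Cfsg.Agent.Lib.CharDeg.PrinCoeff
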