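import Cfsg.Agent.Lib.CharDeg.PrinCoeff
import Cfsg.Agent.Lib.CharDeg.OddIndexGalBlock
import Cfsg.Agent.Lib.Transfer.Tate
import Mathlib

/-!
# Normal `2`-complements and `σ`-fixed odd degree characters of the principal block

`σ` is the power map `g ↦ g ^ k`, with `g ^ k = g ^ 3` on `2`-elements and `g ^ k = g` on odd order
elements.  For `P` a Sylow `2`-subgroup and `λ : P → {±1}`, the number
`∑_{χ ∈ B₀} χ(1) [χ_P, λ] = |G : P| a₁` is odd, `a₁` being the coefficient of `1` in the idempotent of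
`B₀`.  So a `σ`-fixed `χ ∈ B₀` of odd degree has `[χ_P, λ]` odd.
If all of them are linear, every `λ` extends to `G` and Tate's theorem gives a normal `2`-complement.
-/

set_option autoImplicit false
set_option linter.unusedSectionVars false

namespace Cfsg.Agent.Lib.CharDeg.SigmaTwoNil

open Cfsg
open Cfsg.Agent.Lib.Char.Basic Cfsg.Agent.Lib.Char.Ortho Cfsg.Agent.Lib.Char.Complete
open Cfsg.Agent.Lib.Char.Linear Cfsg.Agent.Lib.Char.Degree
open Cfsg.Agent.Lib.Blocks.Local Cfsg.Agent.Lib.Blocks.Central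
open Cfsg.Agent.Lib.Blk89.PrinBlock
open Cfsg.Agent.Lib.OddChar.GaloisConj
open Cfsg.Agent.Lib.CharDeg.PrinCoeff
open Cfsg.Agent.Lib.Transfer.Basic Cfsg.Agent.Lib.Transfer.Tate
open scoped ComplexConjugate

universe u

section Power

variable {G : Type u} [Group G]

theorem coprime_of_hk [Finite G] {k : ℕ} (hk₁ : ∀ g : G, (∃ j : ℕ, orderOf g = 2 ^ j) → g ^ k = g ^ 3)
    (hk₂ : ∀ g : G, Odd (orderOf g) → g ^ k = g) : k.Coprime (Nat.card G) := by
  by_contra hne
  obtain ⟨q, hq, hqk, hqG⟩ := Nat.Prime.not_coprime_iff_dvd.mp hne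
  haveI : Fact q.Prime := ⟨hq⟩
  obtain ⟨g, hg⟩ := exists_prime_orderOf_dvd_card' q hqG
  have hg1 : g ^ k = 1 := by
    rw [← orderOf_dvd_iff_pow_eq_one, hg]
    exact hqk
  have hgne : g ≠ 1 := by
    rintro rfl
    rw [orderOf_one] at hg
    exact hq.one_lt.ne hg
  rcases hq.eq_two_or_odd' with rfl | hodd
  · have h3 := hk₁ g ⟨1, by rw [hg, pow_one]⟩
    rw [hg1] at h3
    have h2 : g ^ 2 = 1 := by
      rw [← hg]
      exact pow_orderOf_eq_one g
    have : g ^ 3 = g := by
      rw [pow_succ, h2, one_mul]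
    rw [this] at h3
    exact hgne h3.symm
  · have h3 := hk₂ g (by rw [hg]; exact hodd)
    rw [hg1] at h3
    exact hgne h3.symm

theorem three_pow_two_pow (e : ℕ) : ∃ c : ℕ, 3 ^ (2 ^ e) = 2 ^ (e + 1) * c + 1 := by
  induction e with
  | zero => exact ⟨1, by norm_num⟩
  | succ e ih =>
    obtain ⟨c, hc⟩ := ih
    refine ⟨2 ^ e * c ^ 2 + c, ?_⟩
    rw [pow_succ 2 e, pow_mul, hc]
    ring

theorem exists_pow_pow_eq [Finite G] {k : ℕ}
    (hk₁ : ∀ g : G, (∃ j : ℕ, orderOf g = 2 ^ j) → g ^ k = g ^ 3)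
    (hk₂ : ∀ g : G, Odd (orderOf g) → g ^ k = g) : ∃ e : ℕ, ∀ g : G, g ^ (k ^ (2 ^ e)) = g := by
  haveI : Fact (Nat.Prime 2) := ⟨Nat.prime_two⟩
  refine ⟨Nat.card G, fun g => ?_⟩
  obtain ⟨x, y, rfl, hc, ⟨j, hj⟩, hy⟩ := Cfsg.Agent.Lib.Blocks.PPart.exists_pPart_y (p := 2) g
  have hodd : Odd (orderOf y) := by
    rcases Nat.even_or_odd (orderOf y) with h | h
    · exact absurd h.two_dvd hy
    · exact h
  have hy1 : ∀ n : ℕ, y ^ (k ^ n) = y := by
    intro n
    induction n with
    | zero => simp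
    | succ n ih =>
      rw [pow_succ, pow_mul, ih]
      exact hk₂ y hodd
  have hx1 : ∀ n : ℕ, x ^ (k ^ n) = x ^ (3 ^ n) := by
    intro n
    induction n with
    | zero => simp
    | succ n ih =>
      rw [pow_succ, pow_mul, ih, pow_succ 3 n, pow_mul]
      apply hk₁
      have h1 : orderOf (x ^ (3 ^ n)) ∣ 2 ^ j := by
        rw [← hj]
        exact orderOf_pow_dvd _
      obtain ⟨i, -, hi⟩ := (Nat.dvd_prime_pow Nat.prime_two).mp h1
      exact ⟨i, hi⟩
  rw [hc.mul_pow, hy1, hx1]
  congr 1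
  obtain ⟨c, hc'⟩ := three_pow_two_pow (Nat.card G)
  rw [hc', pow_succ, pow_mul]
  have hjle : j ≤ Nat.card G + 1 := by
    have h1 : 2 ^ j ∣ Nat.card G := hj ▸ orderOf_dvd_natCard x
    have h2 : 2 ^ j ≤ Nat.card G := Nat.le_of_dvd Nat.card_pos h1
    have h3 : j < 2 ^ j := Nat.lt_two_pow_self
    omega
  have : x ^ 2 ^ (Nat.card G + 1) = 1 := by
    rw [← orderOf_dvd_iff_pow_eq_one, hj]
    exact pow_dvd_pow 2 hjle
  rw [this, one_pow, one_mul]

end Power

section Main

variable {G : Type u} [Group G] [Fintype G]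

/-- A parity count under the power map. -/
theorem sum_parity' [Fintype (IrrCharacter G)] {k e : ℕ} (hk : k.Coprime (Nat.card G))
    (hke : ∀ g : G, g ^ (k ^ (2 ^ e)) = g) (B : Set (IrrCharacter G)) [DecidablePred (· ∈ B)]
    (hB : ∀ χ ∈ B, powI hk χ ∈ B) (D : IrrCharacter G → ℕ) (hD : ∀ χ, D (powI hk χ) = D χ) :
    (∑ χ ∈ Finset.univ.filter (· ∈ B), D χ) % 2 =
      (Finset.univ.filter (fun χ : IrrCharacter G => χ ∈ B ∧ Odd (D χ) ∧ powI hk χ = χ)).card % 2 := by
  classical
  let S := {χ : IrrCharacter G // χ ∈ B ∧ Odd (D χ)}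
  let f : Function.End S := fun i => ⟨powI hk i.1, hB _ i.2.1, by rw [hD]; exact i.2.2⟩
  have hfpow : ∀ (j : ℕ) (i : S) (g : G), (((f ^ j) i).1 : G → ℂ) g = (i.1 : G → ℂ) (g ^ (k ^ j)) := by
    intro j
    induction j with
    | zero =>
      intro i g
      rw [pow_zero, pow_zero, pow_one]
      rfl
    | succ j ih =>
      intro i g
      rw [pow_succ]
      show ((f ^ j) (f i)).1.1 g = _
      rw [ih]
      show (i.1 : G → ℂ) ((g ^ (k ^ j)) ^ k) = _
      rw [← pow_mul, pow_succ]
  have hf1 : f ^ 2 ^ e = 1 := by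
    funext i
    apply Subtype.ext
    apply Subtype.ext
    funext g
    rw [hfpow, hke]
    rfl
  haveI : Fact (Nat.Prime 2) := ⟨Nat.prime_two⟩
  have hmod := Equiv.Perm.card_fixedPoints_modEq (f := f) (p := 2) (n := e) hf1
  have hc1 : Fintype.card S = (Finset.univ.filter (fun χ : IrrCharacter G => χ ∈ B ∧ Odd (D χ))).card := by
    rw [Fintype.card_subtype]
  have hc2 : Fintype.card (Function.fixedPoints f) =
      (Finset.univ.filter (fun χ : IrrCharacter G => χ ∈ B ∧ Odd (D χ) ∧ powI hk χ = χ)).card := by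
    rw [← Fintype.card_subtype]
    apply Fintype.card_congr
    refine ⟨fun x => ⟨x.1.1, x.1.2.1, x.1.2.2, ?_⟩, fun y => ⟨⟨y.1, y.2.1, y.2.2.1⟩, ?_⟩, ?_, ?_⟩
    · have := x.2
      have h2 : f x.1 = x.1 := this
      exact congrArg Subtype.val h2
    · apply Subtype.ext
      exact y.2.2.2
    · intro x; rfl
    · intro y; rfl
  have hsum : (∑ χ ∈ Finset.univ.filter (· ∈ B), D χ) % 2 =
      (Finset.univ.filter (fun χ : IrrCharacter G => χ ∈ B ∧ Odd (D χ))).card % 2 := by
    have h1 : (Finset.univ.filter (fun χ : IrrCharacter G => χ ∈ B ∧ Odd (D χ))) =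
        (Finset.univ.filter (· ∈ B)).filter (fun χ => Odd (D χ)) := by
      rw [Finset.filter_filter]
    rw [h1, Finset.card_filter, Finset.sum_nat_mod]
    conv_rhs => rw [Finset.sum_nat_mod]
    congr 1
    refine Finset.sum_congr rfl fun i _ => ?_
    rcases Nat.even_or_odd (D i) with h | h
    · have h' : ¬ Odd (D i) := Nat.not_odd_iff_even.mpr h
      rw [if_neg h']
      obtain ⟨r, hr⟩ := h
      rw [hr]
      omega
    · rw [if_pos h]
      obtain ⟨r, hr⟩ := h
      rw [hr]
      omega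
  rw [hsum, ← hc1, ← hc2]
  exact hmod

theorem classInner_powI_subgroup (H : Subgroup G) [Fintype H] {k : ℕ} (hk : k.Coprime (Nat.card G))
    (χ : IrrCharacter G) {θ : H → ℂ} (hθk : ∀ n : H, θ (n ^ k) = θ n) :
    classInner (fun n : H => ((powI hk χ : IrrCharacter G) : G → ℂ) n) θ =
      classInner (fun n : H => (χ : G → ℂ) n) θ := by
  have hcard_N : k.Coprime (Nat.card H) :=
    Nat.Coprime.coprime_dvd_right (Subgroup.card_subgroup_dvd_card H) hk
  rw [classInner_def, classInner_def]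
  congr 1
  have hb := Cfsg.Agent.Lib.OddChar.GaloisConj.pow_bijective_of_coprime (G := H) hcard_N
  rw [← hb.sum_comp (fun n : H => (χ : G → ℂ) n * conj (θ n))]
  refine Finset.sum_congr rfl fun n _ => ?_
  simp only [hθk, Subgroup.coe_pow, powI_apply]

/-- The formula `|G : P| a₁ = ∑_{χ ∈ B} χ(1) [χ_P, λ]` for a `p`-subgroup `P`. -/
theorem formula_sylow {M : Ideal AlgInt} {p : ℕ} (hM : IsPModular p M) [Fintype (IrrCharacter G)]
    {B : Set (IrrCharacter G)} [DecidablePred (· ∈ B)] (hB : IsPBlock M B) (P : Subgroup G) [Fintype P]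
    (hP : IsPGroup p P) (lam : P →* ℂˣ) (m : IrrCharacter G → ℕ)
    (hm : ∀ χ : IrrCharacter G, classInner (fun n : P => (χ : G → ℂ) n) (fun n : P => (lam n : ℂ)) = m χ) :
    (P.index : ℂ) * blockCoeff B 1 =
      ((∑ χ ∈ Finset.univ.filter (· ∈ B), charDegree (χ : G → ℂ) * m χ : ℕ) : ℂ) := by
  classical
  haveI : Fact p.Prime := ⟨hM.1⟩
  have hcardN : (Nat.card P : ℂ) ≠ 0 := by exact_mod_cast Nat.card_pos.ne'
  have hcardG : (Nat.card G : ℂ) ≠ 0 := by exact_mod_cast Nat.card_pos.ne'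
  have hidx : (Nat.card G : ℂ) = (Nat.card P : ℂ) * (P.index : ℂ) := by
    rw [← Subgroup.card_mul_index P]
    push_cast
    rfl
  have hidx0 : (P.index : ℂ) ≠ 0 := by
    intro h
    rw [h, mul_zero] at hidx
    exact hcardG hidx
  have h1 : ∀ χ : IrrCharacter G, ∑ n : P, (lam n : ℂ) * conj ((χ : G → ℂ) n) =
      (Nat.card P : ℂ) * (m χ : ℂ) := by
    intro χ
    have h2 := classInner_conj (fun n : P => (χ : G → ℂ) n) (fun n : P => (lam n : ℂ))
    rw [hm, Complex.conj_natCast, classInner_def] at h2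
    rw [h2, ← mul_assoc, mul_inv_cancel₀ hcardN, one_mul]
  have hzero : ∀ n : P, n ≠ 1 → blockCoeff B (n : G) = 0 := by
    intro n hn
    refine Cfsg.Agent.Lib.BlockT.Inflate2.blockCoeff_eq_zero hM hB ?_
    obtain ⟨j, hj⟩ := (IsPGroup.iff_orderOf.mp hP) n
    rw [Subgroup.orderOf_coe, hj]
    refine dvd_pow_self p ?_
    rintro rfl
    rw [pow_zero, orderOf_eq_one_iff] at hj
    exact hn hj
  have hsum1 : ∑ n : P, blockCoeff B (n : G) * (lam n : ℂ) = blockCoeff B 1 := by
    rw [Finset.sum_eq_single (1 : P)]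
    · simp
    · intro n _ hn
      rw [hzero n hn, zero_mul]
    · intro h
      exact absurd (Finset.mem_univ _) h
  have hsum2 : ∑ n : P, blockCoeff B (n : G) * (lam n : ℂ) =
      (Nat.card G : ℂ)⁻¹ * ∑ χ : IrrCharacter G,
        if χ ∈ B then (χ : G → ℂ) 1 * ((Nat.card P : ℂ) * (m χ : ℂ)) else 0 := by
    calc ∑ n : P, blockCoeff B (n : G) * (lam n : ℂ)
        = ∑ n : P, (Nat.card G : ℂ)⁻¹ * ∑ χ : IrrCharacter G,
            if χ ∈ B then (χ : G → ℂ) 1 * ((lam n : ℂ) * conj ((χ : G → ℂ) n)) else 0 := by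
          refine Finset.sum_congr rfl fun n _ => ?_
          rw [blockCoeff_eq_sum, mul_assoc, Finset.sum_mul]
          congr 1
          refine Finset.sum_congr rfl fun χ _ => ?_
          split_ifs
          · ring
          · simp
      _ = _ := by
          rw [← Finset.mul_sum, Finset.sum_comm]
          congr 1
          refine Finset.sum_congr rfl fun χ _ => ?_
          split_ifs
          · rw [← h1, Finset.mul_sum]
          · simp
  rw [← hsum1, hsum2]
  have h3 : ∀ χ : IrrCharacter G, (if χ ∈ B then (χ : G → ℂ) 1 * ((Nat.card P : ℂ) * (m χ : ℂ)) else 0) =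
      (Nat.card P : ℂ) * (if χ ∈ B then ((charDegree (χ : G → ℂ) * m χ : ℕ) : ℂ) else 0) := by
    intro χ
    split_ifs
    · rw [← charDegree_natCast (isCharacter_of_isIrrCharacter χ.2)]
      push_cast
      ring
    · simp
  simp_rw [h3]
  rw [← Finset.mul_sum, hidx]
  push_cast
  rw [Finset.sum_filter]
  push_cast
  field_simp

/-- **Key existence statement.** For `lam : P → ℂˣ` with values `±1`, there is a `σ`-fixed member of
the principal block of odd degree with `[χ_P, lam] ≠ 0`. -/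
theorem exists_fixed_odd {M : Ideal AlgInt} (hM : IsPModular 2 M) (P : Sylow 2 G)
    [Fintype (P : Subgroup G)] {k : ℕ}
    (hk₁ : ∀ g : G, (∃ j : ℕ, orderOf g = 2 ^ j) → g ^ k = g ^ 3)
    (hk₂ : ∀ g : G, Odd (orderOf g) → g ^ k = g) (lam : (P : Subgroup G) →* ℂˣ)
    (hlam : ∀ x, lam x ^ 2 = 1) :
    ∃ χ ∈ principalBlock M G, Odd (charDegree (χ : G → ℂ)) ∧
      (∀ g : G, (χ : G → ℂ) (g ^ k) = (χ : G → ℂ) g) ∧
      classInner (fun n : (P : Subgroup G) => (χ : G → ℂ) n) (fun n : (P : Subgroup G) => (lam n : ℂ)) ≠ 0 := by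
  classical
  haveI hMp := isPrime_of_pModular hM
  haveI : Fact (Nat.Prime 2) := ⟨Nat.prime_two⟩
  haveI := finite_irrCharacter (G := G)
  letI := Fintype.ofFinite (IrrCharacter G)
  have hk := coprime_of_hk hk₁ hk₂
  obtain ⟨e, he⟩ := exists_pow_pow_eq hk₁ hk₂
  set B := principalBlock M G with hBdef
  have hB : IsPBlock M B := Cfsg.Agent.Lib.Blocks.Third.isPBlock_principal M
  have hmex : ∀ x : IrrCharacter G, ∃ a : ℕ, classInner (fun n : (P : Subgroup G) => (x : G → ℂ) n)
      (fun n : (P : Subgroup G) => (lam n : ℂ)) = a :=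
    fun x => exists_nat_classInner (isCharacter_restrict _ (isCharacter_of_isIrrCharacter x.2))
      (isCharacter_of_isIrrCharacter (isIrrCharacter_of_hom lam))
  choose m hm using hmex
  have hlamk : ∀ n : (P : Subgroup G), ((lam (n ^ k) : ℂˣ) : ℂ) = lam n := by
    intro n
    have h1 : n ^ k = n ^ 3 := by
      apply Subtype.ext
      push_cast
      apply hk₁
      obtain ⟨j, hj⟩ := (IsPGroup.iff_orderOf.mp P.isPGroup') n
      exact ⟨j, by rw [Subgroup.orderOf_coe, hj]⟩
    rw [h1, map_pow, pow_succ, hlam, one_mul]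
  have hmσ : ∀ x, m (powI hk x) = m x := by
    intro x
    have h1 := classInner_powI_subgroup (P : Subgroup G) hk x
      (θ := fun n : (P : Subgroup G) => (lam n : ℂ)) hlamk
    rw [hm, hm] at h1
    exact_mod_cast h1
  have hdegσ : ∀ x : IrrCharacter G, charDegree ((powI hk x : IrrCharacter G) : G → ℂ) = charDegree (x : G → ℂ) := by
    intro x
    have : ((powI hk x : IrrCharacter G) : G → ℂ) 1 = (x : G → ℂ) 1 := by
      rw [powI_apply, one_pow]
    simp only [charDegree, this]
  set D : IrrCharacter G → ℕ := fun x => charDegree (x : G → ℂ) * m x with hD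
  have hDσ : ∀ x, D (powI hk x) = D x := by
    intro x
    simp only [hD, hmσ, hdegσ]
  have hform := formula_sylow hM hB (P : Subgroup G) P.isPGroup' lam m hm
  have hSodd : Odd (∑ x ∈ Finset.univ.filter (· ∈ B), D x) := by
    by_contra hev
    rw [Nat.not_odd_iff_even] at hev
    have h1 : MemLocalIdeal M (((∑ x ∈ Finset.univ.filter (· ∈ B), D x : ℕ)) : ℂ) :=
      (natCast_memLocalIdeal_iff hM _).mpr hev.two_dvd
    rw [← hform] at h1
    have hnd : ¬ MemLocalIdeal M ((P : Subgroup G).index : ℂ) := by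
      rw [natCast_memLocalIdeal_iff hM]
      exact P.not_dvd_index
    exact blockCoeff_one_principal_notMem hM
      (memLocalIdeal_of_mul (memLocalRing_natCast _) hnd (memLocalRing_blockCoeff hB 1) h1)
  have hpar := sum_parity' hk he B (fun x hx => powI_mem_principal hk hx) D hDσ
  have hne : (Finset.univ.filter (fun x : IrrCharacter G => x ∈ B ∧ Odd (D x) ∧ powI hk x = x)).Nonempty := by
    rw [Finset.nonempty_iff_ne_empty]
    intro h
    rw [h, Finset.card_empty] at hpar
    rw [Nat.odd_iff] at hSodd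
    omega
  obtain ⟨χ, hχ⟩ := hne
  simp only [Finset.mem_filter, Finset.mem_univ, true_and] at hχ
  obtain ⟨hχB, hχD, hχσ⟩ := hχ
  have hodd := Nat.odd_mul.mp hχD
  refine ⟨χ, hχB, hodd.1, ?_, ?_⟩
  · intro g
    have := congrFun (congrArg Subtype.val hχσ) g
    exact this
  · rw [hm]
    intro h0
    have : m χ = 0 := by exact_mod_cast h0
    rw [this] at hodd
    exact absurd hodd.2 (by decide)

end Main

section Extend

variable {G : Type u} [Group G] [Finite G]

theorem mult_two_cases (a : Multiplicative (ZMod 2)) : a = 1 ∨ a = Multiplicative.ofAdd 1 := by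
  revert a
  decide

theorem ofAdd_one_mul_self : (Multiplicative.ofAdd (1 : ZMod 2)) * Multiplicative.ofAdd 1 = 1 := by decide

theorem ofAdd_one_ne_one : (Multiplicative.ofAdd (1 : ZMod 2)) ≠ 1 := by decide

/-- The sign homomorphism. -/
noncomputable def signHom : Multiplicative (ZMod 2) →* ℂˣ :=
  MonoidHom.mk' (fun a => if a = 1 then 1 else -1) (by
    intro a b
    have h : ∀ a b : Multiplicative (ZMod 2), (a * b = 1 ↔ (a = 1 ↔ b = 1)) := by decide
    by_cases ha : a = 1 <;> by_cases hb : b = 1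
    · have : a * b = 1 := (h a b).mpr (by simp [ha, hb])
      simp [ha, hb]
    · have : a * b ≠ 1 := fun h' => hb (((h a b).mp h').mp ha)
      simp [ha, hb, this]
    · have : a * b ≠ 1 := fun h' => ha (((h a b).mp h').mpr hb)
      simp [ha, hb, this]
    · have : a * b = 1 := (h a b).mpr (by simp [ha, hb])
      simp [ha, hb, this])

theorem signHom_sq (a : Multiplicative (ZMod 2)) : signHom a ^ 2 = 1 := by
  simp only [signHom, MonoidHom.mk'_apply]
  split_ifs <;> simp

/-- From a linear character extending the sign of `f`, an extension of `f`. -/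
theorem extends_of_linear (P : Sylow 2 G) (f : (P : Subgroup G) →* Multiplicative (ZMod 2))
    (ℓ : G →* ℂˣ) (hℓ : ∀ x : (P : Subgroup G), ℓ x = signHom (f x)) :
    ∃ f' : G →* Multiplicative (ZMod 2), ∀ x : (P : Subgroup G), f' x = f x := by
  classical
  obtain ⟨a, m, hm, hcard⟩ := Nat.exists_eq_two_pow_mul_odd (n := Nat.card G) Nat.card_pos.ne'
  haveI : Fact (Nat.Prime 2) := ⟨Nat.prime_two⟩
  -- the values of `ℓ` on `2`-elements are `±1`
  have h2el : ∀ u : G, u ^ (2 ^ a) = 1 → ℓ u ^ 2 = 1 := by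
    intro u hu
    have hq : IsPGroup 2 (Subgroup.zpowers u) := by
      rw [IsPGroup.iff_card]
      obtain ⟨i, -, hi⟩ := (Nat.dvd_prime_pow Nat.prime_two).mp (orderOf_dvd_of_pow_eq_one hu)
      exact ⟨i, by rw [Nat.card_zpowers, hi]⟩
    obtain ⟨Q, hQ⟩ := hq.exists_le_sylow
    obtain ⟨g, rfl⟩ := MulAction.exists_smul_eq G P Q
    have hmem : u ∈ (g • P : Sylow 2 G) := hQ (Subgroup.mem_zpowers _)
    have h1 := (Cfsg.Agent.Lib.Transfer.Frobenius.mem_smul_sylow_iff g u P).mp hmem
    have h3 : ℓ u = ℓ (g⁻¹ * u * g) := by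
      rw [map_mul, map_mul, map_inv]
      rw [mul_comm (ℓ g)⁻¹, mul_assoc, mul_comm _ (ℓ g), ← mul_assoc, mul_inv_cancel_right]
    rw [h3]
    have h4 := hℓ ⟨_, h1⟩
    have h5 : ℓ (g⁻¹ * u * g) = signHom (f ⟨_, h1⟩) := h4
    rw [h5]
    exact signHom_sq _
  let ψ : G →* ℂˣ := ℓ ^ m
  have hψ : ∀ g, ψ g ^ 2 = 1 := by
    intro g
    have h1 : ψ g = ℓ (g ^ m) := by
      show ℓ g ^ m = _
      rw [map_pow]
    rw [h1]
    apply h2el
    rw [← pow_mul, mul_comm, ← hcard]
    exact pow_card_eq_one'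
  have hψcases : ∀ g, ψ g = 1 ∨ ψ g = -1 := by
    intro g
    have h1 : ((ψ g : ℂˣ) : ℂ) ^ 2 = 1 ^ 2 := by
      rw [one_pow]
      have := congrArg (Units.val) (hψ g)
      simpa using this
    rcases eq_or_eq_neg_of_sq_eq_sq _ _ h1 with h | h
    · left
      exact Units.ext (by simpa using h)
    · right
      exact Units.ext (by simpa using h)
  have hP : ∀ x : (P : Subgroup G), ψ x = signHom (f x) := by
    intro x
    show ℓ x ^ m = _
    rw [hℓ]
    obtain ⟨r, hr⟩ := hm
    rw [hr, pow_succ, pow_mul, signHom_sq, one_pow, one_mul]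
  refine ⟨MonoidHom.mk' (fun g => if ψ g = 1 then 1 else Multiplicative.ofAdd 1) ?_, ?_⟩
  · intro g h
    rw [map_mul]
    have hne : (-1 : ℂˣ) ≠ 1 := by
      intro h
      have := congrArg (Units.val) h
      norm_num at this
    rcases hψcases g with hg | hg <;> rcases hψcases h with hh | hh <;> simp only [hg, hh, mul_one, one_mul, mul_neg, neg_mul, neg_neg, if_true, if_neg hne]
    exact ofAdd_one_mul_self.symm
  · intro x
    simp only [MonoidHom.mk'_apply]
    rw [hP]
    rcases mult_two_cases (f x) with h | h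
    · rw [h]
      simp
    · rw [h]
      have hne : (-1 : ℂˣ) ≠ 1 := by
        intro h
        have := congrArg (Units.val) h
        norm_num at this
      have h1 : signHom (Multiplicative.ofAdd (1 : ZMod 2)) = -1 := by
        simp only [signHom, MonoidHom.mk'_apply]
        rw [if_neg ofAdd_one_ne_one]
      rw [h1, if_neg hne]

/-- **Normal `2`-complements from `σ`-fixed odd degree characters of the principal block.** -/
theorem hasNormalPComplement_iff {M : Ideal AlgInt} (hM : IsPModular 2 M) {k : ℕ}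
    (hk₁ : ∀ g : G, (∃ j : ℕ, orderOf g = 2 ^ j) → g ^ k = g ^ 3)
    (hk₂ : ∀ g : G, Odd (orderOf g) → g ^ k = g) :
    HasNormalPComplement 2 G ↔ ∀ χ ∈ principalBlock M G, Odd (charDegree (χ : G → ℂ)) →
      (∀ g : G, (χ : G → ℂ) (g ^ k) = (χ : G → ℂ) g) → charDegree (χ : G → ℂ) = 1 := by
  classical
  cases nonempty_fintype G
  haveI hMp := isPrime_of_pModular hM
  haveI : Fact (Nat.Prime 2) := ⟨Nat.prime_two⟩
  constructor
  · rintro ⟨P, N, hNn, hc⟩ χ hχ hodd -
    have hidx : N.index = Nat.card P := hc.symm.index_eq_card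
    have hNcard : ¬ 2 ∣ Nat.card N := by
      rw [← hc.index_eq_card]
      exact P.not_dvd_index
    have hker : ∀ n ∈ (QuotientGroup.mk' N).ker, (χ : G → ℂ) n = (χ : G → ℂ) 1 := by
      intro n hn
      rw [QuotientGroup.ker_mk'] at hn
      exact Cfsg.Agent.Lib.Blocks.General.eq_one_of_mem_principal hM hNn hNcard hχ hn
    obtain ⟨φ, hφ, he⟩ := isIrrCharacter_descend (QuotientGroup.mk' N)
      (QuotientGroup.mk'_surjective _) χ.2 hker
    have hdeg : charDegree (χ : G → ℂ) = charDegree φ := by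
      simp only [charDegree, he, Function.comp, map_one]
    have hdvd := charDegree_dvd_card hφ
    rw [← Subgroup.index_eq_card, hidx] at hdvd
    obtain ⟨j, hj⟩ := IsPGroup.iff_card.mp P.isPGroup'
    rw [hj, ← hdeg] at hdvd
    obtain ⟨i, -, hi⟩ := (Nat.dvd_prime_pow Nat.prime_two).mp hdvd
    rw [hi] at hodd ⊢
    rcases Nat.eq_zero_or_pos i with rfl | hipos
    · rfl
    · exfalso
      rw [Nat.odd_iff] at hodd
      have : 2 ∣ 2 ^ i := dvd_pow_self 2 hipos.ne'
      omega
  · intro h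
    obtain ⟨P⟩ : Nonempty (Sylow 2 G) := inferInstance
    letI : Fintype (P : Subgroup G) := Fintype.ofFinite _
    have hE : HomExtends 2 (P : Subgroup G) := by
      intro f
      let lam : (P : Subgroup G) →* ℂˣ := signHom.comp f
      obtain ⟨χ, hB, hodd, hfix, hne⟩ := exists_fixed_odd hM P hk₁ hk₂ lam (fun x => signHom_sq _)
      have hdeg := h χ hB hodd hfix
      have hχc := isCharacter_of_isIrrCharacter χ.2
      have h1 : (χ : G → ℂ) 1 = 1 := by
        rw [← charDegree_natCast hχc, hdeg]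
        simp
      obtain ⟨ℓ, hℓ⟩ := exists_hom_of_deg_one hχc h1
      have hres : (fun n : (P : Subgroup G) => (χ : G → ℂ) n) = fun n : (P : Subgroup G) => (lam n : ℂ) := by
        by_contra hne'
        apply hne
        refine classInner_eq_zero_of_isIrr_of_ne ?_ (isIrrCharacter_of_hom lam) hne'
        have : (fun n : (P : Subgroup G) => (χ : G → ℂ) n) =
            fun n : (P : Subgroup G) => ((ℓ.comp (P : Subgroup G).subtype) n : ℂ) := by
          funext n
          rw [hℓ]
          rfl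
        rw [this]
        exact isIrrCharacter_of_hom _
      refine extends_of_linear P f ℓ fun x => ?_
      apply Units.ext
      have h2 := congrFun hres x
      rw [hℓ] at h2
      exact h2
    apply hasNormalPComplement_of_inf_eq_bot P
    rw [pResidual_inf_eq_of_homExtends _ P.not_dvd_index hE, pResidual_eq_bot_of_isPGroup P.2,
      Subgroup.map_bot]

end Extend

end Cfsg.Agent.Lib.CharDeg.SigmaTwoNil
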